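import Cfsg.Agent.SporChar.FiHex
import Cfsg.Agent.SporChar.J4BCoc

/-! The Thompson subgroup of a Sylow 2-subgroup in a group with a cocode frame. -/

set_option autoImplicit false

namespace Cfsg.Lib.SporChar

open Subgroup Cfsg.Lib.Spor Cfsg.Lib.Local Cfsg.Lib.Solv
open scoped Pointwise

variable {G : Type*} [Group G] {z x : G} {Q B Y V : Subgroup G} {v : Finset GolayPt → G}
  {ρ : G → Equiv.Perm GolayPt}

theorem Coc.cj (c : Coc V v ρ) (g : G) :
    Coc (MulAut.conj g • V) (fun A => g * v A * g⁻¹) fun n => ρ (g⁻¹ * n * g) := by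
  have m : ∀ {n}, n ∈ normalizer ((MulAut.conj g • V : Subgroup G) : Set G) ↔
      g⁻¹ * n * g ∈ normalizer (V : Set G) := by rw [← conj_smul_normalizer]; exact Solv.mem_conj_smul
  refine ⟨fun A B => by rw [c.mul, conj_mul], fun a => Solv.mem_conj_smul.trans ((c.mem _).trans
    (exists_congr fun A => and_congr_right' ⟨fun e => by rw [e]; group, fun e => by rw [← e]; group⟩)),
    fun A hA => conj_eq_one_iff.trans (c.eq_one A hA), fun n => c.ρ_mem _, fun a ha b hb =>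
      (congrArg ρ (by group)).trans (c.ρ_mul _ (m.1 ha) _ (m.1 hb)), fun n hn =>
      (c.ρ_eq_one _ (m.1 hn)).trans Solv.mem_conj_smul.symm, fun σ hσ => ?_, fun n hn A hA => by
        rw [← c.conj _ (m.1 hn) A hA]; group⟩
  obtain ⟨n, hn, e⟩ := c.ρ_surj σ hσ
  have e1 : g⁻¹ * (g * n * g⁻¹) * g = n := by group
  exact ⟨g * n * g⁻¹, m.2 (e1.symm ▸ hn), by rw [e1, e]⟩

theorem Coc.quot (c : Coc V v ρ) {K : Subgroup G} (hK : K ≤ normalizer (V : Set G))
    {S : Subgroup (Equiv.Perm GolayPt)} (hS : ∀ σ, σ ∈ S ↔ ∃ k ∈ K, ρ k = σ) :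
    ∃ _ : (V.subgroupOf K).Normal, Nonempty (K ⧸ V.subgroupOf K ≃* S) := by
  have h1 : V.subgroupOf K = (c.hom.comp (inclusion hK)).ker :=
    Subgroup.ext fun k => (c.ρ_eq_one _ (hK k.2)).symm
  have h2 : (c.hom.comp (inclusion hK)).range = S := Subgroup.ext fun σ =>
    ⟨fun ⟨k, e⟩ => (hS σ).2 ⟨k, k.2, e⟩, fun h => let ⟨k, hk, e⟩ := (hS σ).1 h; ⟨⟨k, hk⟩, e⟩⟩
  have : (V.subgroupOf K).Normal := by rw [h1]; infer_instance
  exact ⟨this, ⟨(QuotientGroup.quotientMulEquivOfEq h1).trans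
    ((QuotientGroup.quotientKerEquivRange _).trans (MulEquiv.subgroupCongr h2))⟩⟩

/-- The properties of the cocode frame that are invariant under conjugation. -/
structure Thom (z : G) (V : Subgroup G) (v : Finset GolayPt → G) (ρ : G → Equiv.Perm GolayPt) :
    Prop where
  coc : Coc V v ρ
  uniq : ∀ A : Subgroup G, A ≤ normalizer (V : Set G) → (∀ a ∈ A, a * a = 1) →
    2 ^ 11 ≤ Nat.card A → A = V
  four : ∀ A : Finset GolayPt, A.card = 4 → IsConj z (v A)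
  two : ∀ A : Finset GolayPt, A.card = 2 → ¬ IsConj z (v A)

namespace Thom

theorem cj (h : Thom z V v ρ) (g : G) :
    Thom z (MulAut.conj g • V) (fun A => g * v A * g⁻¹) fun n => ρ (g⁻¹ * n * g) :=
  ⟨h.coc.cj g, fun A h1 h2 h3 => (conj_smul_eq_iff.2 (h.uniq (MulAut.conj g⁻¹ • A) (by
    rwa [conj_smul_le_iff_le_conj_inv_smul, inv_inv, conj_smul_normalizer]) (sq_conj h2 _)
      (by rwa [card_conj_smul])).symm).symm,
    fun A hA => (h.four A hA).trans (isConj_iff.2 ⟨g, rfl⟩),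
    fun A hA e => h.two A hA (e.trans (isConj_iff.2 ⟨g, rfl⟩).symm)⟩

theorem elem (h : Thom z V v ρ) : IsElementaryAbelian 2 V :=
  ⟨⟨⟨fun a b => Subtype.ext (h.coc.commV a.2 b.2)⟩⟩, fun a ha => (sq a).trans (h.coc.sqV a ha)⟩

theorem max_eq [Finite G] (h : Thom z V v ρ) {K : Type*} [Group K] {j : K →* G}
    (hj : Function.Injective j) (h1 : V ≤ j.range) (h2 : j.range ≤ normalizer (V : Set G)) :
    maxElementaryAbelianSubgroups 2 K = {V.comap j} := by
  have c : ∀ A : Subgroup K, IsElementaryAbelian 2 A → 2 ^ 11 ≤ Nat.card A → A = V.comap j :=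
    fun A hA h3 => by
      rw [← h.uniq (A.map j) ((map_le_range _ _).trans h2) (by
        rintro _ ⟨a, ha, rfl⟩; rw [← map_mul, ← sq, hA.2 a ha, map_one])
        (by rwa [card_map_of_injective hj]), comap_map_eq_self_of_injective hj]
  have d : Nat.card (V.comap j) = 2 ^ 11 := by
    rw [← card_map_of_injective hj, map_comap_eq_self h1, h.coc.cardV]
  have e : IsElementaryAbelian 2 (V.comap j) := ⟨⟨⟨fun a b => Subtype.ext (hj (by
    simpa using h.coc.commV a.2 b.2))⟩⟩, fun a ha => hj (by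
      rw [map_pow, map_one, sq]; exact h.coc.sqV _ ha)⟩
  refine Set.eq_singleton_iff_unique_mem.2 ⟨⟨e, fun A hA => ?_⟩, fun A hA => c A hA.1 (d ▸ hA.2 _ e)⟩
  rcases le_total (2 ^ 11) (Nat.card A) with h3 | h3
  · rw [c A hA h3]
  · rwa [d]

theorem trans (h : Thom z V v ρ) {a b : G} (ha : a ∈ V) (hb : b ∈ V) (h1 : a ≠ 1) (h2 : b ≠ 1)
    (e : IsConj z a ↔ IsConj z b) : ∃ m ∈ normalizer (V : Set G), m * a * m⁻¹ = b := by
  obtain ⟨A, hA, rfl⟩ | ⟨A, hA, rfl⟩ := (h.coc.cases ha).resolve_left h1 <;>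
    obtain ⟨C, hC, rfl⟩ | ⟨C, hC, rfl⟩ := (h.coc.cases hb).resolve_left h2
  · exact h.coc.trans (by omega) (hA ▸ by decide) (hA.trans hC.symm)
  · exact absurd (e.2 (h.four C hC)) (h.two A hA)
  · exact absurd (e.1 (h.four A hA)) (h.two C hC)
  · exact h.coc.trans (by omega) (hA ▸ by decide) (hA.trans hC.symm)

end Thom

theorem HexOut2.exists_thom [Finite G] (h : HexOut2 z x Q B Y v ρ) {K P : Subgroup G} (hK : Y ≤ K)
    (hP : P ≤ K) (h2 : IsPGroup 2 P) (hm : ∀ S ≤ K, IsPGroup 2 S → P ≤ S → S ≤ P) :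
    ∃ g ∈ K, ∃ v ρ, Thom z (MulAut.conj g • hexV Q B) v ρ ∧ MulAut.conj g • hexV Q B ≤ P ∧
      P ≤ normalizer ((MulAut.conj g • hexV Q B : Subgroup G) : Set G) := by
  obtain ⟨T, hT⟩ := h.sylow
  obtain ⟨g, hg, e⟩ := exists_conj_le_sylow T (hT.trans hK) hP h2
  have h3 := Thom.cj ⟨h.coc, h.uniq, h.four, h.two⟩ g⁻¹
  have h4 : P ≤ normalizer ((MulAut.conj g⁻¹ • hexV Q B : Subgroup G) : Set G) := by
    rw [← conj_smul_normalizer, ← conj_smul_le_iff_le_conj_inv_smul]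
    exact (conj_smul_le_iff.2 e).trans (hT.trans (h.inf_eq.ge.trans inf_le_right))
  refine ⟨g⁻¹, inv_mem hg, _, _, h3, le_sup_left.trans (hm _ (sup_le (conj_smul_le_iff.2 fun a ha =>
    mul_mem (mul_mem (inv_mem hg) (hK (h.inf_eq.le ⟨mem_centralizer_singleton_iff.2
      (h.coc.commV ha ?_), le_normalizer ha⟩))) (inv_mem (inv_mem hg))) hP)
    ((isPGroup_of_sq h3.coc.sqV).to_sup_of_normal_left' h2 h4) le_sup_right), h4⟩
  exact h.v_col ▸ h.coc.v_mem (by decide +kernel)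

theorem Fi.exists_thom [Finite G] {Q : Subgroup (centralizer ({z} : Set G))} [Q.Normal]
    (hF : IsOfLargeFischerTypeAt z Q) (T : Sylow 2 G) :
    ∃ v ρ, Thom z (thompsonSubgroupOf 2 (T : Subgroup G)) v ρ := by
  obtain ⟨π, ν, h⟩ := Fi.exists_fd hF
  obtain ⟨x, h⟩ := h.exists_fx
  obtain ⟨-, v, ρ, -, h⟩ := h.out
  obtain ⟨g, -, v, ρ, h, h1, h2⟩ := h.exists_thom le_top le_top T.isPGroup'
    fun S _ h1 h2 => (T.is_maximal' h1 h2).le
  rw [← range_subtype (T : Subgroup G)] at h1 h2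
  exact ⟨v, ρ, by rwa [thompsonSubgroupOf, thompsonSubgroup, h.max_eq (subtype_injective _) h1 h2,
    sSup_singleton, map_comap_eq_self h1]⟩

end Cfsg.Lib.SporChar
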